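import Mathlib
import Cfsg.Agent.H477.PiCyclic
import Cfsg.Agent.H477.ZConj
import Cfsg.Agent.S0003

/-!
`N_G(D) / M` is a B-group, for `1 < D < M`, `M` the normal elementary abelian Sylow subgroup of a
solvable B-group.
-/

set_option autoImplicit false

namespace Cfsg.Agent.H477

open Subgroup

section General
variable {G : Type*} [Group G] [Finite G]

omit [Finite G] in
theorem card_sup_of_normal {M X : Subgroup G} [M.Normal]
    (hcop : (Nat.card ↥M).Coprime (Nat.card ↥X)) :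
    Nat.card ↥(M ⊔ X) = Nat.card ↥M * Nat.card ↥X := by
  have h1 := relIndex_mul_relIndex (⊥ : Subgroup G) M (M ⊔ X) bot_le le_sup_left
  rw [relIndex_bot_left, relIndex_bot_left, relIndex_sup_left] at h1
  rw [← h1]
  congr 1
  have h2 := relIndex_mul_relIndex (⊥ : Subgroup G) (M ⊓ X) X bot_le inf_le_right
  rw [relIndex_bot_left, relIndex_bot_left, inf_relIndex_right,
    (Subgroup.disjoint_of_coprime_natCard hcop).eq_bot, Subgroup.card_bot, one_mul] at h2
  exact h2

omit [Finite G] in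
theorem card_sup_of_le_normalizer {D X : Subgroup G} (hX : X ≤ normalizer (D : Set G))
    (hcop : (Nat.card ↥D).Coprime (Nat.card ↥X)) :
    Nat.card ↥(D ⊔ X) = Nat.card ↥D * Nat.card ↥X := by
  set N := normalizer (D : Set G) with hN
  have hDN : D ≤ N := le_normalizer
  have : (D.subgroupOf N).Normal := normal_in_normalizer
  have hcD : Nat.card ↥(D.subgroupOf N) = Nat.card ↥D := Nat.card_congr (subgroupOfEquivOfLe hDN).toEquiv
  have hcX : Nat.card ↥(X.subgroupOf N) = Nat.card ↥X := Nat.card_congr (subgroupOfEquivOfLe hX).toEquiv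
  have h1 := card_sup_of_normal (M := D.subgroupOf N) (X := X.subgroupOf N) (by rw [hcD, hcX]; exact hcop)
  rw [hcD, hcX] at h1
  rw [← h1, ← Subgroup.card_map_of_injective N.subtype_injective, Subgroup.map_sup,
    Subgroup.map_subgroupOf_eq_of_le hDN, Subgroup.map_subgroupOf_eq_of_le hX]

omit [Finite G] in
/-- Elements of the join of two commuting subgroups are products. -/
theorem exists_mul_of_mem_sup {D Y : Subgroup G} (hc : ∀ y ∈ Y, ∀ d ∈ D, y * d = d * y) {z : G}
    (hz : z ∈ D ⊔ Y) : ∃ d ∈ D, ∃ y ∈ Y, z = d * y ∧ Commute d y := by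
  have h1 : D ≤ normalizer (Y : Set G) := by
    intro d hd
    rw [mem_normalizer_iff]
    intro y
    constructor
    · intro hy
      rw [← hc y hy d hd, mul_inv_cancel_right]
      exact hy
    · intro hy
      have h2 := hc _ hy d hd
      have h3 : d * y = d * (d * y * d⁻¹) := by rw [← h2]; group
      have h4 : y = d * y * d⁻¹ := mul_left_cancel h3
      rw [h4]; exact hy
  have h2 : z ∈ ((D ⊔ Y : Subgroup G) : Set G) := hz
  rw [coe_mul_of_left_le_normalizer_right _ _ h1] at h2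
  obtain ⟨d, hd, y, hy, rfl⟩ := h2
  exact ⟨d, hd, y, hy, rfl, (hc y hy d hd).symm⟩

omit [Finite G] in
theorem pow_card_mem_eq_one {X : Subgroup G} {x : G} (hx : x ∈ X) : x ^ Nat.card ↥X = 1 := by
  have : (⟨x, hx⟩ : ↥X) ^ Nat.card ↥X = 1 := pow_card_eq_one'
  exact congrArg Subtype.val this

/-- Fusion of abelian subgroups of `C_G(D)`. -/
theorem IsB.conj_in_normalizer (hB : IsB G) {p : ℕ} [hp : Fact p.Prime] {D : Subgroup G}
    (hDc : IsMulCommutative ↥D) (hDp : ∀ x ∈ D, x ^ p = 1) {X Y : Subgroup G}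
    (hX : X ≤ centralizer (D : Set G)) (hY : Y ≤ centralizer (D : Set G))
    (hXc : IsMulCommutative ↥X) (hYc : IsMulCommutative ↥Y) (hcard : Nat.card ↥X = Nat.card ↥Y)
    (hcop : p.Coprime (Nat.card ↥X)) :
    ∃ g ∈ normalizer (D : Set G), Y = X.map (MulAut.conj g).toMonoidHom := by
  obtain ⟨t, ht⟩ := card_eq_pow_of_exponent hp.out hDp
  have hcX : ∀ x ∈ X, ∀ d ∈ D, x * d = d * x := fun x hx d hd =>
    (mem_centralizer_iff.mp (hX hx) d hd).symm
  have hcY : ∀ x ∈ Y, ∀ d ∈ D, x * d = d * x := fun x hx d hd =>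
    (mem_centralizer_iff.mp (hY hx) d hd).symm
  have hcopX : (Nat.card ↥D).Coprime (Nat.card ↥X) := by rw [ht]; exact Nat.Coprime.pow_left t hcop
  have hcopY : (Nat.card ↥D).Coprime (Nat.card ↥Y) := hcard ▸ hcopX
  have hcardX := card_sup_of_le_normalizer (hX.trans (centralizer_le_normalizer _)) hcopX
  have hcardY := card_sup_of_le_normalizer (hY.trans (centralizer_le_normalizer _)) hcopY
  obtain ⟨g, hg⟩ := hB (D ⊔ X) (D ⊔ Y) (isMulCommutative_sup hDc hXc hcX)
    (isMulCommutative_sup hDc hYc hcY) (by rw [hcardX, hcardY, hcard])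
  have hDg : D.map (MulAut.conj g).toMonoidHom = D := by
    apply Subgroup.eq_of_le_of_card_ge
    · rintro _ ⟨d, hd, rfl⟩
      have h1 : (MulAut.conj g).toMonoidHom d ∈ D ⊔ Y := by
        rw [hg]; exact ⟨d, (le_sup_left : D ≤ D ⊔ X) hd, rfl⟩
      obtain ⟨d', hd', y, hy, h2, h3⟩ := exists_mul_of_mem_sup hcY h1
      have h4 : (d' * y) ^ p = 1 := by rw [← h2, ← map_pow, hDp d hd, map_one]
      rw [h3.mul_pow, hDp d' hd', one_mul] at h4
      have h5 : y = 1 := eq_one_of_pow_coprime (hcard ▸ hcop) h4 (pow_card_mem_eq_one hy)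
      rw [h2, h5, mul_one]
      exact hd'
    · rw [card_map_conj]
  refine ⟨g, mem_normalizer_iff_map_conj_eq.mpr hDg, ?_⟩
  symm
  apply Subgroup.eq_of_le_of_card_ge
  · rintro _ ⟨x, hx, rfl⟩
    have h1 : (MulAut.conj g).toMonoidHom x ∈ D ⊔ Y := by
      rw [hg]; exact ⟨x, (le_sup_right : X ≤ D ⊔ X) hx, rfl⟩
    obtain ⟨d', hd', y, hy, h2, h3⟩ := exists_mul_of_mem_sup hcY h1
    have h4 : (d' * y) ^ Nat.card ↥X = 1 := by
      rw [← h2, ← map_pow, pow_card_mem_eq_one hx, map_one]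
    rw [h3.mul_pow, hcard, pow_card_mem_eq_one hy, mul_one, ← hcard] at h4
    have h5 : d' = 1 := eq_one_of_pow_coprime hcop (hDp d' hd') h4
    rw [h2, h5, one_mul]
    exact hy
  · rw [card_map_conj, hcard]

/-- Splitting of an order into the part composed of primes of `c` and the rest. -/
theorem exists_split (n c : ℕ) (hn : n ≠ 0) :
    ∃ a b : ℕ, n = a * b ∧ b.Coprime c ∧ ∀ r : ℕ, r.Prime → r ∣ a → r ∣ c := by
  classical
  obtain ⟨b, hb, hbmax⟩ := Finset.exists_max_image (n.divisors.filter (fun b => b.Coprime c)) id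
    ⟨1, by rw [Finset.mem_filter]; exact ⟨Nat.one_mem_divisors.mpr hn, Nat.coprime_one_left c⟩⟩
  rw [Finset.mem_filter, Nat.mem_divisors] at hb
  obtain ⟨⟨⟨a, ha⟩, -⟩, hbc⟩ := hb
  refine ⟨a, b, by rw [ha, mul_comm], hbc, ?_⟩
  intro r hr hra
  by_contra hrc
  obtain ⟨a', rfl⟩ := hra
  have h1 : b * r ∈ n.divisors.filter (fun b => b.Coprime c) := by
    rw [Finset.mem_filter, Nat.mem_divisors]
    refine ⟨⟨⟨a', by rw [ha]; ring⟩, hn⟩, ?_⟩
    exact Nat.Coprime.mul_left hbc (hr.coprime_iff_not_dvd.mpr hrc)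
  have h2 := hbmax _ h1
  simp only [id] at h2
  have h3 : 0 < b := by
    rcases Nat.eq_zero_or_pos b with h | h
    · rw [h, zero_mul] at ha; exact absurd ha hn
    · exact h
  have h4 := hr.two_le
  nlinarith

/-- An abelian subgroup of order `a * b`, `a`, `b` coprime, splits. -/
theorem exists_split_subgroup {X : Subgroup G} (hXc : IsMulCommutative ↥X) {a b : ℕ}
    (hab : Nat.card ↥X = a * b) (hcop : a.Coprime b) :
    ∃ X₁ X₂ : Subgroup G, Nat.card ↥X₁ = a ∧ Nat.card ↥X₂ = b ∧ X₁ ⊔ X₂ = X := by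
  have : Group.IsSolvable ↥X := Group.isSolvable_of_comm hXc.is_comm.comm
  obtain ⟨H₁, h1⟩ := Cfsg.Agent.S0003.result (G := ↥X) a b hab hcop
  obtain ⟨H₂, h2⟩ := Cfsg.Agent.S0003.result (G := ↥X) b a (by rw [hab, mul_comm]) hcop.symm
  have h3 : H₁.IsComplement' H₂ :=
    isComplement'_of_coprime (by rw [h1, h2, hab]) (by rw [h1, h2]; exact hcop)
  refine ⟨H₁.map X.subtype, H₂.map X.subtype, ?_, ?_, ?_⟩
  · rw [Subgroup.card_map_of_injective X.subtype_injective, h1]
  · rw [Subgroup.card_map_of_injective X.subtype_injective, h2]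
  · rw [← Subgroup.map_sup, h3.sup_eq_top, ← MonoidHom.range_eq_map, Subgroup.range_subtype]

/-- A quotient by a normal Hall subgroup is a B-group if abelian complements are conjugate. -/
theorem isB_quot_of_coprime {M : Subgroup G} [hM : M.Normal] (hcop : (Nat.card ↥M).Coprime M.index)
    (H : ∀ X Y : Subgroup G, IsMulCommutative ↥X → IsMulCommutative ↥Y →
      Nat.card ↥X = Nat.card ↥Y → (Nat.card ↥M).Coprime (Nat.card ↥X) →
      ∃ g : G, Y = X.map (MulAut.conj g).toMonoidHom) : IsB (G ⧸ M) := by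
  intro A B hAc hBc hcard
  apply conj_of_comap (QuotientGroup.mk' M) (QuotientGroup.mk'_surjective M)
  have hker : (QuotientGroup.mk' M).ker = M := QuotientGroup.ker_mk' M
  set A' := A.comap (QuotientGroup.mk' M) with hA'
  set B' := B.comap (QuotientGroup.mk' M) with hB'
  have hMA : M ≤ A' := by
    have := MonoidHom.ker_le_comap (QuotientGroup.mk' M) A
    rwa [hker] at this
  have hMB : M ≤ B' := by
    have := MonoidHom.ker_le_comap (QuotientGroup.mk' M) B
    rwa [hker] at this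
  have hcard' : Nat.card ↥A' = Nat.card ↥B' := by
    rw [hA', hB', card_comap_of_surjective _ (QuotientGroup.mk'_surjective M),
      card_comap_of_surjective _ (QuotientGroup.mk'_surjective M), hcard]
  have hab : ∀ C : Subgroup (G ⧸ M), IsMulCommutative ↥C →
      ∀ a ∈ C.comap (QuotientGroup.mk' M), ∀ b ∈ C.comap (QuotientGroup.mk' M),
        a * b * a⁻¹ * b⁻¹ ∈ M := by
    intro C hC a ha b hb
    have h1 := isMulCommutative_iff.mp hC _ ha _ hb
    rw [← hker, MonoidHom.mem_ker, map_mul, map_mul, map_mul, map_inv, map_inv, h1]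
    group
  have hcopA : (Nat.card ↥M).Coprime (M.relIndex A') :=
    hcop.coprime_dvd_right (relIndex_dvd_index_of_le hMA)
  have hcopB : (Nat.card ↥M).Coprime (M.relIndex B') :=
    hcop.coprime_dvd_right (relIndex_dvd_index_of_le hMB)
  obtain ⟨K, hKA, hKs, hKc, hKab⟩ := exists_compl_in hMA hcopA (hab A hAc)
  obtain ⟨L, hLB, hLs, hLc, hLab⟩ := exists_compl_in hMB hcopB (hab B hBc)
  obtain ⟨g, hg⟩ := H K L hKab hLab (by rw [hKc, hLc, relIndex_eq_of_card_eq hMA hMB hcard'])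
    (by rw [hKc]; exact hcopA)
  refine ⟨g, ?_⟩
  rw [← hLs, ← hKs, Subgroup.map_sup, ← hg]
  congr 1
  exact (hM.conjAct g).symm

end General

section Main
variable {G : Type*} [Group G] [Finite G]

/-- Abelian `p'`-subgroups of `N_G(D)` of the same order are conjugate in `N_G(D)`. -/
theorem IsB.conj_in_normalizer' [hs : Group.IsSolvable G] (hB : IsB G) {p : ℕ} [hp : Fact p.Prime]
    {M : Subgroup G} [M.Normal] (hMc : IsMulCommutative ↥M)
    (hMp : ∀ x ∈ M, x ^ p = 1) {D : Subgroup G} (hDM : D ≤ M) (hD1 : D ≠ ⊥) (hD2 : D ≠ M)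
    {X Y : Subgroup G} (hX : X ≤ normalizer (D : Set G)) (hY : Y ≤ normalizer (D : Set G))
    (hXc : IsMulCommutative ↥X) (hYc : IsMulCommutative ↥Y) (hcard : Nat.card ↥X = Nat.card ↥Y)
    (hcop : p.Coprime (Nat.card ↥X)) :
    ∃ g ∈ normalizer (D : Set G), Y = X.map (MulAut.conj g).toMonoidHom := by
  set N := normalizer (D : Set G) with hN
  set C := centralizer (D : Set G) with hC
  set c := C.relIndex N with hc
  obtain ⟨a, b, hab, hbc, hac⟩ := exists_split (Nat.card ↥X) c (Nat.card_pos).ne'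
  have hacop : a.Coprime b := by
    apply Nat.Coprime.symm
    rw [Nat.coprime_iff_gcd_eq_one]
    by_contra hne
    obtain ⟨r, hr, hrd⟩ := Nat.exists_prime_and_dvd hne
    have h1 : r ∣ b := hrd.trans (Nat.gcd_dvd_left _ _)
    have h2 : r ∣ a := hrd.trans (Nat.gcd_dvd_right _ _)
    have h3 := Nat.dvd_gcd h1 (hac r hr h2)
    rw [hbc] at h3
    exact hr.one_lt.ne' (Nat.dvd_one.mp h3)
  obtain ⟨X₁, X₂, hX₁, hX₂, hXs⟩ := exists_split_subgroup hXc hab hacop
  obtain ⟨Y₁, Y₂, hY₁, hY₂, hYs⟩ := exists_split_subgroup hYc (hcard ▸ hab) hacop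
  have hDc : IsMulCommutative ↥D := isMulCommutative_mono hDM hMc
  have hDp : ∀ x ∈ D, x ^ p = 1 := fun x hx => hMp x (hDM hx)
  -- the `b`-parts centralise `D`
  have hcent : ∀ Z : Subgroup G, Z ≤ N → Nat.card ↥Z = b → Z ≤ C := by
    intro Z hZN hZb z hz
    have hCn : (C.subgroupOf N).Normal := inferInstance
    have h1 : ((⟨z, hZN hz⟩ : ↥N) : ↥N) ^ c ∈ C.subgroupOf N := Subgroup.pow_index_mem (C.subgroupOf N) _
    have h2 : z ^ b = 1 := by rw [← hZb]; exact pow_card_mem_eq_one hz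
    have h3 : (QuotientGroup.mk' (C.subgroupOf N) ⟨z, hZN hz⟩) ^ c = 1 := by
      rw [← map_pow]
      exact (QuotientGroup.eq_one_iff _).mpr h1
    have h4 : (QuotientGroup.mk' (C.subgroupOf N) ⟨z, hZN hz⟩) ^ b = 1 := by
      rw [← map_pow]
      have : (⟨z, hZN hz⟩ : ↥N) ^ b = 1 := Subtype.ext h2
      rw [this, map_one]
    have h5 := eq_one_of_pow_coprime hbc h4 h3
    have h6 : (⟨z, hZN hz⟩ : ↥N) ∈ C.subgroupOf N := (QuotientGroup.eq_one_iff _).mp h5
    exact h6
  have hX₁X : X₁ ≤ X := by rw [← hXs]; exact le_sup_left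
  have hX₂X : X₂ ≤ X := by rw [← hXs]; exact le_sup_right
  have hY₁Y : Y₁ ≤ Y := by rw [← hYs]; exact le_sup_left
  have hY₂Y : Y₂ ≤ Y := by rw [← hYs]; exact le_sup_right
  obtain ⟨g, hgN, hg⟩ := hB.conj_in_normalizer hDc hDp (hcent X₂ (hX₂X.trans hX) hX₂)
    (hcent Y₂ (hY₂Y.trans hY) hY₂) (isMulCommutative_mono hX₂X hXc) (isMulCommutative_mono hY₂Y hYc)
    (by rw [hX₂, hY₂]) (by
      rw [hX₂]
      exact hcop.coprime_dvd_right (by rw [hab]; exact dvd_mul_left b a))
  -- replace `X` by its conjugate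
  set X' := X.map (MulAut.conj g).toMonoidHom with hX'
  set X₁' := X₁.map (MulAut.conj g).toMonoidHom with hX₁'
  have hX's : X₁' ⊔ Y₂ = X' := by
    rw [hX₁', hg, ← Subgroup.map_sup, hXs]
  have hX'c : IsMulCommutative ↥X' := by
    rw [isMulCommutative_iff]
    rintro _ ⟨x, hx, rfl⟩ _ ⟨y, hy, rfl⟩
    rw [← map_mul, ← map_mul, isMulCommutative_iff.mp hXc x hx y hy]
  have hX'N : X' ≤ N := by
    rintro _ ⟨x, hx, rfl⟩
    exact N.mul_mem (N.mul_mem hgN (hX hx)) (N.inv_mem hgN)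
  set T := N ⊓ centralizer (Y₂ : Set G) with hT
  have hX₁'T : X₁' ≤ T := by
    apply le_inf
    · exact (le_sup_left : X₁' ≤ X₁' ⊔ Y₂).trans (hX's.le.trans hX'N)
    · intro x hx
      rw [mem_centralizer_iff]
      intro y hy
      have hx' : x ∈ X' := by rw [← hX's]; exact (le_sup_left : X₁' ≤ X₁' ⊔ Y₂) hx
      have hy' : y ∈ X' := by rw [← hX's]; exact (le_sup_right : Y₂ ≤ X₁' ⊔ Y₂) hy
      exact isMulCommutative_iff.mp hX'c y hy' x hx'
  have hY₁T : Y₁ ≤ T := by
    apply le_inf (hY₁Y.trans hY)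
    intro x hx
    rw [mem_centralizer_iff]
    intro y hy
    exact isMulCommutative_iff.mp hYc y (hY₂Y hy) x (hY₁Y hx)
  have hcX₁ : Nat.card ↥(X₁'.subgroupOf T) = a := by
    rw [Nat.card_congr (subgroupOfEquivOfLe hX₁'T).toEquiv, hX₁', card_map_conj, hX₁]
  have hcY₁ : Nat.card ↥(Y₁.subgroupOf T) = a := by
    rw [Nat.card_congr (subgroupOfEquivOfLe hY₁T).toEquiv, hY₁]
  obtain ⟨t, htT, ht⟩ := conj_mem_of_subgroupOf hX₁'T hY₁T
    (conj_of_cyclic (G := ↥T) (X := X₁'.subgroupOf T) (Y := Y₁.subgroupOf T) (by rw [hcX₁, hcY₁]) (by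
      intro r hr hrd R hR
      rw [hcX₁] at hrd
      have : Fact r.Prime := ⟨hr⟩
      have : IsMulCommutative ↥M := hMc
      have h1 : IsCyclic ↥(R.map T.subtype) := hB.isCyclic_of_dvd M hMp hDM hD1 hD2 (hac r hr hrd)
        ((Subgroup.map_subtype_le R).trans inf_le_left) (hR.map T.subtype)
      exact isCyclic_of_injective ((R.equivMapOfInjective T.subtype T.subtype_injective).toMonoidHom)
        (R.equivMapOfInjective T.subtype T.subtype_injective).injective))
  have hY₂t : Y₂.map (MulAut.conj t).toMonoidHom = Y₂ := by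
    ext x
    constructor
    · rintro ⟨y, hy, rfl⟩
      have := mem_centralizer_iff.mp htT.2 y hy
      have h3 : (MulAut.conj t).toMonoidHom y = y := by simp [← this]
      rw [h3]; exact hy
    · intro hx
      refine ⟨x, hx, ?_⟩
      have := mem_centralizer_iff.mp htT.2 x hx
      simp [← this]
  refine ⟨t * g, N.mul_mem htT.1 hgN, ?_⟩
  apply conj_trans_of hX'
  rw [← hYs, ← hX's, Subgroup.map_sup, ← ht, hY₂t]

/-- **`N_G(D) / M` is a B-group.** -/
theorem IsB.isB_normalizer_quot [hs : Group.IsSolvable G] (hB : IsB G) {p : ℕ} [hp : Fact p.Prime]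
    {M : Subgroup G} [M.Normal] (hMc : IsMulCommutative ↥M)
    (hMp : ∀ x ∈ M, x ^ p = 1) (hMi : (Nat.card ↥M).Coprime M.index)
    {D : Subgroup G} (hDM : D ≤ M) (hD1 : D ≠ ⊥) (hD2 : D ≠ M)
    (hMN : M ≤ normalizer (D : Set G)) :
    IsB (↥(normalizer (D : Set G)) ⧸ M.subgroupOf (normalizer (D : Set G))) := by
  set N := normalizer (D : Set G) with hN
  have hcM : Nat.card ↥(M.subgroupOf N) = Nat.card ↥M := Nat.card_congr (subgroupOfEquivOfLe hMN).toEquiv
  have hMne : M ≠ ⊥ := by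
    rintro rfl
    exact hD1 (le_bot_iff.mp hDM)
  have hpM : p ∣ Nat.card ↥M := by
    obtain ⟨m, hm, hmo⟩ := exists_orderOf_eq_prime hp.out hMne hMp
    rw [← hmo, ← Subgroup.orderOf_mk m hm]
    exact orderOf_dvd_natCard _
  apply isB_quot_of_coprime
  · rw [hcM]
    exact hMi.coprime_dvd_right (relIndex_dvd_index_of_le hMN)
  · intro X Y hXc hYc hcard hcop
    rw [hcM] at hcop
    have hcop' : p.Coprime (Nat.card ↥X) := hcop.coprime_dvd_left hpM
    have hXN : X.map N.subtype ≤ N := Subgroup.map_subtype_le X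
    have hYN : Y.map N.subtype ≤ N := Subgroup.map_subtype_le Y
    have hmc : ∀ Z : Subgroup ↥N, IsMulCommutative ↥Z → IsMulCommutative ↥(Z.map N.subtype) := by
      intro Z hZ
      rw [isMulCommutative_iff]
      rintro _ ⟨x, hx, rfl⟩ _ ⟨y, hy, rfl⟩
      exact congrArg Subtype.val (isMulCommutative_iff.mp hZ x hx y hy)
    have hcm : ∀ Z : Subgroup ↥N, Nat.card ↥(Z.map N.subtype) = Nat.card ↥Z := fun Z =>
      Subgroup.card_map_of_injective N.subtype_injective
    obtain ⟨g, hgN, hg⟩ := hB.conj_in_normalizer' hMc hMp hDM hD1 hD2 hXN hYN (hmc X hXc) (hmc Y hYc)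
      (by rw [hcm, hcm, hcard]) (by rw [hcm]; exact hcop')
    refine ⟨⟨g, hgN⟩, ?_⟩
    apply Subgroup.map_injective N.subtype_injective
    rw [hg, Subgroup.map_map, Subgroup.map_map]
    congr 1

end Main

end Cfsg.Agent.H477
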