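import Mathlib
import Cfsg.Agent.H477.Quot
import Cfsg.Agent.H477.ElemNormal
import Cfsg.Agent.S0016
import Cfsg.Agent.S0001

/-!
The quotient of a B-group by a normal elementary abelian subgroup.
-/

set_option autoImplicit false

namespace Cfsg.Agent.H477

open Subgroup

theorem pow_comm_of_central {A : Type*} [Group A] {k y c : A} (hc : c ∈ Subgroup.center A)
    (h : k * y = c * y * k) (n : ℕ) : k ^ n * y = c ^ n * y * k ^ n := by
  have hcc := Subgroup.mem_center_iff.mp hc
  induction n with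
  | zero => simp
  | succ n ih =>
    calc k ^ (n + 1) * y = k ^ n * (k * y) := by rw [pow_succ, mul_assoc]
      _ = k ^ n * (c * (y * k)) := by rw [h, mul_assoc]
      _ = (k ^ n * c) * (y * k) := by rw [mul_assoc]
      _ = (c * k ^ n) * (y * k) := by rw [hcc]
      _ = c * (k ^ n * y) * k := by simp only [mul_assoc]
      _ = c * (c ^ n * y * k ^ n) * k := by rw [ih]
      _ = c ^ (n + 1) * y * k ^ (n + 1) := by rw [pow_succ' c, pow_succ k]; simp only [mul_assoc]

theorem eq_one_of_pow_coprime {A : Type*} [Group A] {c : A} {m n : ℕ} (hmn : m.Coprime n)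
    (h1 : c ^ m = 1) (h2 : c ^ n = 1) : c = 1 := by
  have := Nat.dvd_gcd (orderOf_dvd_of_pow_eq_one h1) (orderOf_dvd_of_pow_eq_one h2)
  rw [hmn] at this
  exact orderOf_eq_one_iff.mp (Nat.dvd_one.mp this)

/-- A group whose commutators lie in a central subgroup of prime order `p` is the direct product of
its Sylow `p`-subgroup and an abelian group. -/
theorem exists_decomp {A : Type*} [Group A] [Finite A] {p : ℕ} [hp : Fact p.Prime] (M : Subgroup A)
    (hM : Nat.card ↥M = p) (hMc : M ≤ Subgroup.center A)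
    (hcomm : ∀ a b : A, a * b * a⁻¹ * b⁻¹ ∈ M) (P : Sylow p A) :
    ∃ K : Subgroup A, Nat.card ↥P * Nat.card ↥K = Nat.card A ∧ (P : Subgroup A) ⊔ K = ⊤ ∧
      p.Coprime (Nat.card ↥K) ∧
      (∀ x ∈ K, ∀ y ∈ (P : Subgroup A), x * y = y * x) ∧ (∀ x ∈ K, ∀ y ∈ K, x * y = y * x) := by
  have hMn : M.Normal := by
    refine ⟨fun x hx g => ?_⟩
    rw [Subgroup.mem_center_iff.mp (hMc hx) g, mul_inv_cancel_right]
    exact hx
  have hMP : M ≤ (P : Subgroup A) :=
    IsPGroup.le_sylow_of_normal (IsPGroup.of_card (n := 1) (by rw [hM, pow_one])) P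
  have hPn : (P : Subgroup A).Normal := by
    refine ⟨fun x hx g => ?_⟩
    have h1 := (P : Subgroup A).mul_mem (hMP (hcomm g x)) hx
    rwa [inv_mul_cancel_right] at h1
  obtain ⟨K, hK⟩ := Subgroup.exists_right_complement'_of_coprime (P.card_coprime_index)
  have hcard : Nat.card ↥P * Nat.card ↥K = Nat.card A := hK.card_mul_card
  have hKi : Nat.card ↥K = (P : Subgroup A).index := by
    have h1 := (P : Subgroup A).card_mul_index
    have h2 : 0 < Nat.card ↥P := Nat.card_pos
    exact Nat.eq_of_mul_eq_mul_left h2 (hcard.trans h1.symm)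
  have hcop : p.Coprime (Nat.card ↥K) := by
    rw [hKi, hp.out.coprime_iff_not_dvd]
    exact P.not_dvd_index
  have hdisj := hK.disjoint
  refine ⟨K, hcard, hK.sup_eq_top, hcop, ?_, ?_⟩
  · intro k hk y hy
    set c := k * y * k⁻¹ * y⁻¹ with hc
    have hcM : c ∈ M := hcomm k y
    have hky : k * y = c * y * k := by rw [hc]; group
    have h1 := pow_comm_of_central (hMc hcM) hky (Nat.card ↥K)
    have hk1 : k ^ Nat.card ↥K = 1 := by
      have : (⟨k, hk⟩ : K) ^ Nat.card ↥K = 1 := pow_card_eq_one'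
      exact congrArg Subtype.val this
    rw [hk1, one_mul, mul_one] at h1
    have hc1 : c ^ Nat.card ↥K = 1 := by
      have := mul_right_cancel (b := y) ((one_mul y).trans h1)
      exact this.symm
    have hc2 : c ^ p = 1 := by
      have : (⟨c, hcM⟩ : M) ^ Nat.card ↥M = 1 := pow_card_eq_one'
      rw [hM] at this
      exact congrArg Subtype.val this
    have hc3 := eq_one_of_pow_coprime hcop hc2 hc1
    rw [hky, hc3, one_mul]
  · intro x hx y hy
    have h1 : x * y * x⁻¹ * y⁻¹ ∈ K := K.mul_mem (K.mul_mem (K.mul_mem hx hy) (K.inv_mem hx)) (K.inv_mem hy)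
    have h2 : x * y * x⁻¹ * y⁻¹ = 1 := Subgroup.disjoint_def.mp hdisj (hMP (hcomm x y)) h1
    have h3 : x * y = (x * y * x⁻¹ * y⁻¹) * (y * x) := by group
    rw [h3, h2, one_mul]

section
variable {G : Type*} [Group G] [Finite G]

theorem relIndex_eq_of_card_eq {M A B : Subgroup G} (hMA : M ≤ A) (hMB : M ≤ B)
    (h : Nat.card ↥A = Nat.card ↥B) : M.relIndex A = M.relIndex B := by
  have h1 := relIndex_mul_relIndex (⊥ : Subgroup G) M A bot_le hMA
  have h2 := relIndex_mul_relIndex (⊥ : Subgroup G) M B bot_le hMB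
  rw [relIndex_bot_left, relIndex_bot_left] at h1 h2
  have h3 : 0 < Nat.card ↥M := Nat.card_pos
  apply Nat.eq_of_mul_eq_mul_left h3
  rw [h1, h2, h]

/-- A subgroup containing a normal subgroup `M` as a Hall subgroup, abelian modulo `M`, is a
product of `M` and an abelian subgroup. -/
theorem exists_compl_in {M A : Subgroup G} [M.Normal] (hMA : M ≤ A)
    (hcop : (Nat.card ↥M).Coprime (M.relIndex A))
    (hab : ∀ a ∈ A, ∀ b ∈ A, a * b * a⁻¹ * b⁻¹ ∈ M) :
    ∃ K : Subgroup G, K ≤ A ∧ M ⊔ K = A ∧ Nat.card ↥K = M.relIndex A ∧ IsMulCommutative ↥K := by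
  have hcM : Nat.card ↥(M.subgroupOf A) = Nat.card ↥M := Nat.card_congr (subgroupOfEquivOfLe hMA).toEquiv
  obtain ⟨K, hK⟩ := Subgroup.exists_right_complement'_of_coprime (N := M.subgroupOf A)
    (by rw [hcM]; exact hcop)
  have hKc : Nat.card ↥K = M.relIndex A := by
    have h1 := hK.card_mul_card
    have h2 := (M.subgroupOf A).card_mul_index
    have h3 : 0 < Nat.card ↥(M.subgroupOf A) := Nat.card_pos
    exact Nat.eq_of_mul_eq_mul_left h3 (h1.trans h2.symm)
  refine ⟨K.map A.subtype, Subgroup.map_subtype_le K, ?_, ?_, ?_⟩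
  · have h1 := congrArg (Subgroup.map A.subtype) hK.sup_eq_top
    rwa [Subgroup.map_sup, Subgroup.map_subgroupOf_eq_of_le hMA, ← MonoidHom.range_eq_map,
      Subgroup.range_subtype] at h1
  · rw [Subgroup.card_map_of_injective A.subtype_injective, hKc]
  · rw [isMulCommutative_iff]
    rintro _ ⟨x, hx, rfl⟩ _ ⟨y, hy, rfl⟩
    have h1 : x * y * x⁻¹ * y⁻¹ ∈ M.subgroupOf A := by
      rw [Subgroup.mem_subgroupOf]
      exact hab x x.2 y y.2
    have h2 : x * y * x⁻¹ * y⁻¹ ∈ K :=
      K.mul_mem (K.mul_mem (K.mul_mem hx hy) (K.inv_mem hx)) (K.inv_mem hy)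
    have h3 : x * y * x⁻¹ * y⁻¹ = 1 := Subgroup.disjoint_def.mp hK.disjoint h1 h2
    have h4 : x * y = y * x := by
      have : x * y = (x * y * x⁻¹ * y⁻¹) * (y * x) := by group
      rw [this, h3, one_mul]
    exact congrArg Subtype.val h4

theorem IsB.conj_of_coprime (hB : IsB G) {M A B : Subgroup G} [hM : M.Normal] (hMA : M ≤ A)
    (hMB : M ≤ B) (hcard : Nat.card ↥A = Nat.card ↥B)
    (hcop : (Nat.card ↥M).Coprime (M.relIndex A))
    (habA : ∀ a ∈ A, ∀ b ∈ A, a * b * a⁻¹ * b⁻¹ ∈ M)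
    (habB : ∀ a ∈ B, ∀ b ∈ B, a * b * a⁻¹ * b⁻¹ ∈ M) :
    ∃ g : G, B = A.map (MulAut.conj g).toMonoidHom := by
  obtain ⟨K, hKA, hKs, hKc, hKab⟩ := exists_compl_in hMA hcop habA
  obtain ⟨L, hLB, hLs, hLc, hLab⟩ := exists_compl_in hMB
    (by rwa [← relIndex_eq_of_card_eq hMA hMB hcard]) habB
  obtain ⟨g, hg⟩ := hB K L hKab hLab (by rw [hKc, hLc, relIndex_eq_of_card_eq hMA hMB hcard])
  refine ⟨g, ?_⟩
  rw [← hLs, ← hKs, Subgroup.map_sup, ← hg]
  congr 1
  exact (hM.conjAct g).symm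

theorem IsB.eq_of_normal {G : Type*} [Group G] (hB : IsB G) {N A : Subgroup G} [hN : N.Normal]
    (hNc : IsMulCommutative ↥N) (hAc : IsMulCommutative ↥A) (h : Nat.card ↥N = Nat.card ↥A) :
    A = N := by
  obtain ⟨g, hg⟩ := hB N A hNc hAc h
  rw [hg]
  exact hN.conjAct g

theorem isMulCommutative_of_card_prime {G : Type*} [Group G] {p : ℕ} [hp : Fact p.Prime]
    {A : Subgroup G} (h : Nat.card ↥A = p) : IsMulCommutative ↥A := by
  have : IsCyclic ↥A := isCyclic_of_prime_card h
  infer_instance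

/-- If a B-group has a normal subgroup of order `p`, its `p`-subgroups have a unique subgroup of
order `p`. -/
theorem IsB.unique_in {G : Type*} [Group G] (hB : IsB G) {p : ℕ} [hp : Fact p.Prime]
    {M : Subgroup G} [M.Normal] (hM : Nat.card ↥M = p) (P : Subgroup G) (H K : Subgroup ↥P)
    (hH : Nat.card ↥H = p) (hK : Nat.card ↥K = p) : H = K := by
  have h1 : ∀ H : Subgroup ↥P, Nat.card ↥H = p → H.map P.subtype = M := by
    intro H hH
    have hc : Nat.card ↥(H.map P.subtype) = p := by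
      rw [Subgroup.card_map_of_injective P.subtype_injective, hH]
    exact hB.eq_of_normal (isMulCommutative_of_card_prime hM) (isMulCommutative_of_card_prime hc)
      (by rw [hM, hc])
  exact Subgroup.map_injective P.subtype_injective ((h1 H hH).trans (h1 K hK).symm)

theorem pgroup_cases {P : Type*} [Group P] [Finite P] {p : ℕ} [Fact p.Prime] (hP : IsPGroup p P)
    (huniq : ∀ H K : Subgroup P, Nat.card H = p → Nat.card K = p → H = K) :
    IsCyclic P ∨ (p = 2 ∧ ∃ n : ℕ, 1 ≤ n ∧ Nonempty (P ≃* QuaternionGroup (2 ^ n))) := by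
  rcases Cfsg.Agent.S0016.result p hP huniq with h | ⟨rfl, n, ⟨e⟩⟩
  · exact Or.inl h
  rcases Nat.eq_zero_or_pos n with rfl | hn
  · have := QuaternionGroup.quaternionGroup_one_isCyclic
    rw [pow_zero] at e
    exact Or.inl (isCyclic_of_surjective e.symm e.symm.surjective)
  · exact Or.inr ⟨rfl, n, hn, ⟨e⟩⟩

/-- A subgroup whose order is divisible by `p²` and which is abelian modulo a normal subgroup `M`
of order `p` centralises `M`. -/
theorem IsB.centralizes (hB : IsB G) {p : ℕ} [hp : Fact p.Prime] {M A : Subgroup G} [M.Normal]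
    (hM : Nat.card ↥M = p) (hA : p ^ 2 ∣ Nat.card ↥A)
    (hab : ∀ a ∈ A, ∀ b ∈ A, a * b * a⁻¹ * b⁻¹ ∈ M) :
    ∀ a ∈ A, ∀ m ∈ M, a * m = m * a := by
  obtain ⟨U', hU'⟩ := Sylow.exists_subgroup_card_pow_prime (G := A) p hA
  set U := U'.map A.subtype with hU
  have hUc : Nat.card ↥U = p ^ 2 := by
    rw [hU, Subgroup.card_map_of_injective A.subtype_injective, hU']
  have hUA : U ≤ A := Subgroup.map_subtype_le U'
  have hMmem : ∀ x : G, x ^ p = 1 → x ∈ M := by
    intro x hx
    by_cases hx1 : x = 1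
    · rw [hx1]; exact M.one_mem
    · have h1 : Subgroup.zpowers x = M := by
        apply hB.eq_of_normal (isMulCommutative_of_card_prime hM) inferInstance
        rw [Nat.card_zpowers, orderOf_eq_prime hx hx1, hM]
      rw [← h1]; exact Subgroup.mem_zpowers x
  obtain ⟨u, huU, hup⟩ : ∃ u ∈ U, u ^ p ≠ 1 := by
    by_contra hcon
    push Not at hcon
    have h1 : U ≤ M := fun u hu => hMmem u (hcon u hu)
    have h2 := Subgroup.card_le_of_le h1
    rw [hUc, hM] at h2
    have h4 := hp.out.two_le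
    nlinarith
  have hup2 : (u ^ p) ^ p = 1 := by
    have : (⟨u, huU⟩ : U) ^ Nat.card ↥U = 1 := pow_card_eq_one'
    have h2 : u ^ Nat.card ↥U = 1 := congrArg Subtype.val this
    rwa [hUc, pow_two, pow_mul] at h2
  have hupM : u ^ p ∈ M := hMmem _ hup2
  have hgen : Subgroup.zpowers (u ^ p) = M := by
    apply hB.eq_of_normal (isMulCommutative_of_card_prime hM) inferInstance
    rw [Nat.card_zpowers, orderOf_eq_prime hup2 hup, hM]
  intro a ha m hm
  have hc : a * u * a⁻¹ * u⁻¹ ∈ M := hab a ha u (hUA huU)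
  set c := a * u * a⁻¹ * u⁻¹ with hcdef
  have hcu : Commute c u := by
    rw [← hgen] at hc
    obtain ⟨k, hk⟩ := Subgroup.mem_zpowers_iff.mp hc
    rw [← hk]
    exact ((Commute.refl u).pow_left p).zpow_left k
  have hcp : c ^ p = 1 := by
    have : (⟨c, hc⟩ : M) ^ Nat.card ↥M = 1 := pow_card_eq_one'
    rw [hM] at this
    exact congrArg Subtype.val this
  have h1 : a * u * a⁻¹ = c * u := by rw [hcdef]; group
  have h2 : a * u ^ p * a⁻¹ = u ^ p := by
    rw [← conj_pow, h1, hcu.mul_pow, hcp, one_mul]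
  have h3 : Commute a (u ^ p) := by
    rw [mul_inv_eq_iff_eq_mul] at h2
    exact h2
  rw [← hgen] at hm
  obtain ⟨k, hk⟩ := Subgroup.mem_zpowers_iff.mp hm
  rw [← hk]
  exact (h3.zpow_right k).eq

/-- In a solvable B-group a generalised quaternion Sylow `2`-subgroup has order `8`. -/
theorem IsB.quaternion_sylow [Group.IsSolvable G] (hB : IsB G) (S : Sylow 2 G) {m : ℕ}
    (hm : 1 ≤ m) (e : ↥(S : Subgroup G) ≃* QuaternionGroup (2 ^ m)) : m = 1 := by
  classical
  have hcardS : Nat.card ↥(S : Subgroup G) = 4 * 2 ^ m := by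
    rw [Nat.card_congr e.toEquiv, Nat.card_eq_fintype_card, QuaternionGroup.card]
  have h4G : 4 ∣ Nat.card G :=
    (Dvd.intro _ hcardS.symm).trans (Subgroup.card_subgroup_dvd_card (S : Subgroup G))
  obtain ⟨N, hNmax⟩ := Set.Finite.exists_maximal
    (Set.toFinite {N : Subgroup G | N.Normal ∧ ¬ 4 ∣ Nat.card ↥N})
    ⟨⊥, ⟨inferInstance, by rw [Subgroup.card_bot]; norm_num⟩⟩
  obtain ⟨hNn, hN4⟩ := hNmax.1
  have hNtop : N ≠ ⊤ := by
    rintro rfl
    rw [Subgroup.card_top] at hN4
    exact hN4 h4G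
  have hnt : (⊤ : Subgroup (G ⧸ N)) ≠ ⊥ := by
    intro h
    apply hNtop
    rw [eq_top_iff]
    intro x _
    rw [← QuotientGroup.eq_one_iff, ← Subgroup.mem_bot, ← h]
    exact Subgroup.mem_top _
  obtain ⟨Mb, r, hMbn, -, hMbne, hr, hMbc, hMbr⟩ := exists_elem_normal (⊤ : Subgroup (G ⧸ N)) hnt
  set π := QuotientGroup.mk' N with hπ
  have hπs : Function.Surjective π := QuotientGroup.mk'_surjective N
  have hker : π.ker = N := QuotientGroup.ker_mk' N
  set L := Mb.comap π with hL
  have hLn : L.Normal := inferInstance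
  have hNL : N ≤ L := by
    have := MonoidHom.ker_le_comap π Mb
    rwa [hker] at this
  have hNLlt : N < L := by
    refine lt_of_le_of_ne hNL ?_
    intro h
    apply hMbne
    rw [← Subgroup.map_comap_eq_self_of_surjective hπs Mb, ← hL, ← h]
    exact (Subgroup.map_eq_bot_iff _).mpr hker.ge
  have hL4 : 4 ∣ Nat.card ↥L := by
    by_contra h
    exact hNLlt.not_ge (hNmax.2 ⟨hLn, h⟩ hNL)
  obtain ⟨t, ht⟩ := card_eq_pow_of_exponent hr hMbr
  have hcardL : Nat.card ↥L = Nat.card ↥N * r ^ t := by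
    rw [hL, card_comap_of_surjective π hπs, hker, ht]
  have hr2 : r = 2 := by
    by_contra hne
    apply hN4
    have h1 : Nat.Coprime 4 (r ^ t) := by
      have h2 : Nat.Coprime 2 r := (Nat.coprime_primes Nat.prime_two hr).mpr (Ne.symm hne)
      exact Nat.Coprime.pow 2 t h2
    rw [hcardL] at hL4
    exact h1.dvd_of_dvd_mul_right hL4
  subst hr2
  -- elements of order four
  have hordxa : ∀ i, orderOf ((e.symm (QuaternionGroup.xa i) : ↥(S : Subgroup G)) : G) = 4 := by
    intro i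
    rw [Subgroup.orderOf_coe, MulEquiv.orderOf_eq, QuaternionGroup.orderOf_xa]
  have hx0 : ((e.symm (QuaternionGroup.xa 0) : ↥(S : Subgroup G)) : G) ∈ L := by
    obtain ⟨U', hU'⟩ := Sylow.exists_subgroup_card_pow_prime (G := L) 2 (n := 2) hL4
    have hUc : Nat.card ↥(U'.map L.subtype) = 2 ^ 2 := by
      rw [Subgroup.card_map_of_injective L.subtype_injective, hU']
    have hUab : IsMulCommutative ↥(U'.map L.subtype) :=
      ⟨⟨(IsPGroup.isMulCommutative_of_card_eq_prime_sq hUc).is_comm.comm⟩⟩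
    obtain ⟨g, hg⟩ := hB (U'.map L.subtype)
      (Subgroup.zpowers ((e.symm (QuaternionGroup.xa 0) : ↥(S : Subgroup G)) : G)) hUab inferInstance
      (by rw [hUc, Nat.card_zpowers, hordxa]; norm_num)
    have h1 : Subgroup.zpowers ((e.symm (QuaternionGroup.xa 0) : ↥(S : Subgroup G)) : G) ≤ L := by
      rw [hg]
      exact map_conj_le_of_normal (Subgroup.map_subtype_le U') g
    exact h1 (Subgroup.mem_zpowers _)
  have hxi : ∀ i, ((e.symm (QuaternionGroup.xa i) : ↥(S : Subgroup G)) : G) ∈ L := fun i =>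
    hB.mem_of_orderOf hx0 (by rw [hordxa, hordxa])
  have hSL : ∀ s : ↥(S : Subgroup G), (s : G) ∈ L := by
    intro s
    obtain ⟨q, rfl⟩ := e.symm.surjective s
    cases q with
    | a i =>
      have h1 : (QuaternionGroup.a i : QuaternionGroup (2 ^ m)) =
          QuaternionGroup.xa 0 * QuaternionGroup.xa (i - ((2 ^ m : ℕ) : ZMod (2 * 2 ^ m))) := by
        rw [QuaternionGroup.xa_mul_xa]
        congr 1
        ring
      rw [h1, map_mul]
      exact L.mul_mem (hxi _) (hxi _)
    | xa i => exact hxi i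
  have hsq : ∀ s : ↥(S : Subgroup G), (s : G) ^ 2 ∈ N := by
    intro s
    have h1 : π (s : G) ∈ Mb := hSL s
    have h2 := hMbr _ h1
    rw [← map_pow] at h2
    rw [← hker]
    exact h2
  have h5 : orderOf (((e.symm (QuaternionGroup.a 1) : ↥(S : Subgroup G)) : G) ^ 2) = 2 ^ m := by
    rw [orderOf_pow_of_dvd (by norm_num)] <;>
      rw [Subgroup.orderOf_coe, MulEquiv.orderOf_eq, QuaternionGroup.orderOf_a_one]
    · simp
    · exact Dvd.intro _ rfl
  have h6 : 2 ^ m ∣ Nat.card ↥N := by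
    rw [← h5, ← Subgroup.orderOf_mk _ (hsq _)]
    exact orderOf_dvd_natCard _
  by_contra hm1
  apply hN4
  exact (pow_dvd_pow 2 (by omega : 2 ≤ m)).trans h6

end

end Cfsg.Agent.H477
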