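import Mathlib
import Cfsg.Agent.H477.QuotMin

/-!
The quotient of a B-group by a normal elementary abelian subgroup is a B-group, if the subgroup
has odd order or the group is solvable.
-/

set_option autoImplicit false

namespace Cfsg.Agent.H477

open Subgroup
open scoped Pointwise

section
variable {G : Type*} [Group G] [Finite G]

/-- Two Sylow subgroups contained in a subgroup `C` are conjugate by an element of `C`. -/
theorem exists_conj_mem_of_sylow_le {p : ℕ} [Fact p.Prime] (P Q : Sylow p G) {C : Subgroup G}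
    (hP : (P : Subgroup G) ≤ C) (hQ : (Q : Subgroup G) ≤ C) :
    ∃ c ∈ C, (Q : Subgroup G) = (P : Subgroup G).map (MulAut.conj c).toMonoidHom := by
  obtain ⟨c, hc⟩ := MulAction.exists_smul_eq (↥C) (P.subtype hP) (Q.subtype hQ)
  refine ⟨c, c.2, ?_⟩
  have h1 := congrArg (fun R : Sylow p ↥C => (R : Subgroup ↥C).map C.subtype) hc
  simp only [Sylow.coe_subgroup_smul, Sylow.coe_subtype, Subgroup.map_subgroupOf_eq_of_le hQ] at h1
  rw [← h1]
  have h2 : MulAut.conj c • (P : Subgroup G).subgroupOf C =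
      ((P : Subgroup G).subgroupOf C).map (MulAut.conj c).toMonoidHom := rfl
  rw [h2, Subgroup.map_map]
  have h3 : C.subtype.comp (MulAut.conj c).toMonoidHom =
      (MulAut.conj (c : G)).toMonoidHom.comp C.subtype := by
    ext x; simp
  rw [h3, ← Subgroup.map_map, Subgroup.map_subgroupOf_eq_of_le hP]

omit [Finite G] in
theorem isMulCommutative_sup {P K : Subgroup G} (hP : IsMulCommutative ↥P)
    (hK : IsMulCommutative ↥K) (hKP : ∀ x ∈ K, ∀ y ∈ P, x * y = y * x) :
    IsMulCommutative ↥(P ⊔ K) := by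
  have h1 : P ⊔ K ≤ centralizer ((P ⊔ K : Subgroup G) : Set G) := by
    apply sup_le
    · rw [le_centralizer_iff]
      apply sup_le
      · intro x hx
        rw [mem_centralizer_iff]
        intro y hy
        exact isMulCommutative_iff.mp hP y hy x hx
      · intro x hx
        rw [mem_centralizer_iff]
        intro y hy
        exact (hKP x hx y hy).symm
    · rw [le_centralizer_iff]
      apply sup_le
      · intro x hx
        rw [mem_centralizer_iff]
        intro y hy
        exact hKP y hy x hx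
      · intro x hx
        rw [mem_centralizer_iff]
        intro y hy
        exact isMulCommutative_iff.mp hK y hy x hx
  rw [isMulCommutative_iff]
  intro x hx y hy
  exact (mem_centralizer_iff.mp (h1 hx) y hy).symm

/-- Decomposition of a subgroup which is abelian modulo a normal subgroup of order `p`. -/
theorem IsB.decomp (hB : IsB G) {p : ℕ} [hp : Fact p.Prime] {M A : Subgroup G} [M.Normal]
    (hM : Nat.card ↥M = p) (hMA : M ≤ A) (hA : p ^ 2 ∣ Nat.card ↥A)
    (hab : ∀ a ∈ A, ∀ b ∈ A, a * b * a⁻¹ * b⁻¹ ∈ M) :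
    ∃ P K : Subgroup G, IsPGroup p ↥P ∧ Nat.card ↥P * Nat.card ↥K = Nat.card ↥A ∧ P ⊔ K = A ∧
      p.Coprime (Nat.card ↥K) ∧ (∀ x ∈ K, ∀ y ∈ P, x * y = y * x) ∧ IsMulCommutative ↥K := by
  have hcent := hB.centralizes hM hA hab
  have hcM : Nat.card ↥(M.subgroupOf A) = p := by
    rw [Nat.card_congr (subgroupOfEquivOfLe hMA).toEquiv, hM]
  have hMc : M.subgroupOf A ≤ Subgroup.center ↥A := by
    intro x hx
    rw [Subgroup.mem_center_iff]
    intro a
    exact Subtype.ext (hcent a a.2 x hx)
  have hcomm : ∀ a b : ↥A, a * b * a⁻¹ * b⁻¹ ∈ M.subgroupOf A := by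
    intro a b
    rw [Subgroup.mem_subgroupOf]
    exact hab a a.2 b b.2
  obtain ⟨P⟩ : Nonempty (Sylow p ↥A) := inferInstance
  obtain ⟨K, h1, h2, h3, h4, h5⟩ := exists_decomp (M.subgroupOf A) hcM hMc hcomm P
  refine ⟨(P : Subgroup ↥A).map A.subtype, K.map A.subtype, P.isPGroup'.map _, ?_, ?_, ?_, ?_, ?_⟩
  · rw [Subgroup.card_map_of_injective A.subtype_injective,
      Subgroup.card_map_of_injective A.subtype_injective]
    exact h1
  · rw [← Subgroup.map_sup, h2, ← MonoidHom.range_eq_map, Subgroup.range_subtype]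
  · rwa [Subgroup.card_map_of_injective A.subtype_injective]
  · rintro _ ⟨x, hx, rfl⟩ _ ⟨y, hy, rfl⟩
    exact congrArg Subtype.val (h4 x hx y hy)
  · rw [isMulCommutative_iff]
    rintro _ ⟨x, hx, rfl⟩ _ ⟨y, hy, rfl⟩
    exact congrArg Subtype.val (h5 x hx y hy)

/-- If a noncommutative `2`-subgroup exists in a solvable B-group with a central involution, its
order is `8` and it is a Sylow subgroup. -/
theorem IsB.card_eight [Group.IsSolvable G] (hB : IsB G) {M : Subgroup G} [M.Normal]
    (hM : Nat.card ↥M = 2) {P : Subgroup G} (hP : IsPGroup 2 ↥P) (hPc : ¬ IsMulCommutative ↥P) :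
    Nat.card ↥P = 8 ∧ 2 ^ (Nat.card G).factorization 2 = 8 := by
  obtain ⟨S, hPS⟩ := hP.exists_le_sylow
  have hSc : ¬ IsCyclic ↥(S : Subgroup G) := by
    intro h
    exact hPc (isMulCommutative_mono hPS inferInstance)
  have hPc' : ¬ IsCyclic ↥P := fun h => hPc inferInstance
  obtain ⟨n, hn, ⟨e⟩⟩ := ((pgroup_cases hP (hB.unique_in hM P)).resolve_left hPc').2
  obtain ⟨m, hm, ⟨f⟩⟩ := ((pgroup_cases S.isPGroup' (hB.unique_in hM (S : Subgroup G))).resolve_left hSc).2
  have hm1 := hB.quaternion_sylow S hm f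
  subst hm1
  have hcardS : Nat.card ↥(S : Subgroup G) = 8 := by
    rw [Nat.card_congr f.toEquiv, Nat.card_eq_fintype_card, QuaternionGroup.card]
    norm_num
  have hcardP : Nat.card ↥P = 4 * 2 ^ n := by
    rw [Nat.card_congr e.toEquiv, Nat.card_eq_fintype_card, QuaternionGroup.card]
  have h1 := Subgroup.card_dvd_of_le hPS
  have h2 : 2 ^ 1 ≤ 2 ^ n := Nat.pow_le_pow_right (by norm_num) hn
  have h3 := Nat.le_of_dvd (by omega) h1
  refine ⟨by omega, ?_⟩
  rw [← S.card_eq_multiplicity]
  exact hcardS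

theorem IsB.conj_of_prime (hB : IsB G) {p : ℕ} [hp : Fact p.Prime] {M A B : Subgroup G}
    [hMn : M.Normal] (hM : Nat.card ↥M = p) (hMA : M ≤ A) (hMB : M ≤ B)
    (hcard : Nat.card ↥A = Nat.card ↥B)
    (habA : ∀ a ∈ A, ∀ b ∈ A, a * b * a⁻¹ * b⁻¹ ∈ M)
    (habB : ∀ a ∈ B, ∀ b ∈ B, a * b * a⁻¹ * b⁻¹ ∈ M) (h2 : p = 2 → Group.IsSolvable G) :
    ∃ g : G, B = A.map (MulAut.conj g).toMonoidHom := by
  by_cases hA : p ^ 2 ∣ Nat.card ↥A
  swap
  · apply hB.conj_of_coprime hMA hMB hcard _ habA habB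
    rw [hM, hp.out.coprime_iff_not_dvd]
    intro h
    apply hA
    have h1 := relIndex_mul_relIndex (⊥ : Subgroup G) M A bot_le hMA
    rw [relIndex_bot_left, relIndex_bot_left, hM] at h1
    rw [← h1, pow_two]
    exact mul_dvd_mul_left p h
  have hB' : p ^ 2 ∣ Nat.card ↥B := hcard ▸ hA
  obtain ⟨PA, KA, hPA, hcA, hsA, hcopA, hcommA, hKA⟩ := hB.decomp hM hMA hA habA
  obtain ⟨PB, KB, hPB, hcB, hsB, hcopB, hcommB, hKB⟩ := hB.decomp hM hMB hB' habB
  -- the two components have equal orders
  obtain ⟨a, ha⟩ := IsPGroup.iff_card.mp hPA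
  obtain ⟨b, hb⟩ := IsPGroup.iff_card.mp hPB
  have hcardP : Nat.card ↥PA = Nat.card ↥PB := by
    apply Nat.dvd_antisymm
    · have h1 : Nat.card ↥PA ∣ Nat.card ↥PB * Nat.card ↥KB := by
        rw [hcB, ← hcard, ← hcA]; exact dvd_mul_right _ _
      rw [ha] at h1 ⊢
      exact (Nat.Coprime.pow_left a hcopB).dvd_of_dvd_mul_right h1
    · have h1 : Nat.card ↥PB ∣ Nat.card ↥PA * Nat.card ↥KA := by
        rw [hcA, hcard, ← hcB]; exact dvd_mul_right _ _
      rw [hb] at h1 ⊢
      exact (Nat.Coprime.pow_left b hcopA).dvd_of_dvd_mul_right h1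
  have hcardK : Nat.card ↥KA = Nat.card ↥KB := by
    have h1 : 0 < Nat.card ↥PA := Nat.card_pos
    apply Nat.eq_of_mul_eq_mul_left h1
    rw [hcA, hcard, ← hcB, hcardP]
  by_cases hcomm : IsMulCommutative ↥PA ∧ IsMulCommutative ↥PB
  · apply hB A B _ _ hcard
    · rw [← hsA]; exact isMulCommutative_sup hcomm.1 hKA hcommA
    · rw [← hsB]; exact isMulCommutative_sup hcomm.2 hKB hcommB
  · -- the noncommutative case
    have hp2 : p = 2 := by
      by_contra hne
      apply hcomm
      constructor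
      · have := (pgroup_cases hPA (hB.unique_in hM PA)).resolve_right (fun h => hne h.1)
        infer_instance
      · have := (pgroup_cases hPB (hB.unique_in hM PB)).resolve_right (fun h => hne h.1)
        infer_instance
    subst hp2
    have hsolv : Group.IsSolvable G := h2 rfl
    have h8 : Nat.card ↥PA = 8 ∧ 2 ^ (Nat.card G).factorization 2 = 8 := by
      by_cases hc : IsMulCommutative ↥PA
      · have := hB.card_eight hM hPB (fun h => hcomm ⟨hc, h⟩)
        exact ⟨hcardP.trans this.1, this.2⟩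
      · exact hB.card_eight hM hPA hc
    obtain ⟨g, hg⟩ := hB KA KB hKA hKB hcardK
    have hcg : Nat.card ↥(PA.map (MulAut.conj g).toMonoidHom) = Nat.card ↥PA :=
      Subgroup.card_map_of_injective (MulAut.conj g).injective
    let SA : Sylow 2 G := Sylow.ofCard (PA.map (MulAut.conj g).toMonoidHom)
      (by rw [hcg, h8.1, h8.2])
    let SB : Sylow 2 G := Sylow.ofCard PB (by rw [← hcardP, h8.1, h8.2])
    have hSA : (SA : Subgroup G) = PA.map (MulAut.conj g).toMonoidHom := Sylow.coe_ofCard _ _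
    have hSB : (SB : Subgroup G) = PB := Sylow.coe_ofCard _ _
    have hlA : (SA : Subgroup G) ≤ centralizer (KB : Set G) := by
      rw [hSA, hg]
      rintro _ ⟨x, hx, rfl⟩
      rw [mem_centralizer_iff]
      rintro _ ⟨y, hy, rfl⟩
      rw [← map_mul, ← map_mul, hcommA y hy x hx]
    have hlB : (SB : Subgroup G) ≤ centralizer (KB : Set G) := by
      rw [hSB]
      intro x hx
      rw [mem_centralizer_iff]
      intro y hy
      exact hcommB y hy x hx
    obtain ⟨c, hc, hcc⟩ := exists_conj_mem_of_sylow_le SA SB hlA hlB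
    rw [hSA, hSB] at hcc
    have hKc : KB = KB.map (MulAut.conj c).toMonoidHom := by
      ext x
      constructor
      · intro hx
        refine ⟨x, hx, ?_⟩
        have := mem_centralizer_iff.mp hc x hx
        simp [← this]
      · rintro ⟨y, hy, rfl⟩
        have := mem_centralizer_iff.mp hc y hy
        have h3 : (MulAut.conj c).toMonoidHom y = y := by simp [← this]
        rw [h3]; exact hy
    refine ⟨c * g, ?_⟩
    have hcomp : (MulAut.conj (c * g)).toMonoidHom =
        (MulAut.conj c).toMonoidHom.comp (MulAut.conj g).toMonoidHom := by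
      ext x; simp [mul_assoc]
    rw [← hsA, ← hsB, hcomp, ← Subgroup.map_map, Subgroup.map_sup, Subgroup.map_sup, ← hcc, ← hg,
      ← hKc]

end

end Cfsg.Agent.H477
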