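import Mathlib
import Cfsg.Agent.H477.QuotElem

/-!
Quotients of B-groups.
-/

set_option autoImplicit false

namespace Cfsg.Agent.H477

open Subgroup

theorem IsB.quot_of_elem {G : Type*} [Group G] [Finite G] (hB : IsB G) {p : ℕ}
    [hp : Fact p.Prime] {M : Subgroup G} [hMn : M.Normal] (hMc : IsMulCommutative ↥M)
    (hMp : ∀ x ∈ M, x ^ p = 1) (hM : M ≠ ⊥) (h2 : p = 2 → Group.IsSolvable G) :
    IsB (G ⧸ M) := by
  obtain ⟨t, ht⟩ := card_eq_pow_of_exponent hp.out hMp
  intro A B hAc hBc hcard
  apply conj_of_comap (QuotientGroup.mk' M) (QuotientGroup.mk'_surjective M)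
  have hker : (QuotientGroup.mk' M).ker = M := QuotientGroup.ker_mk' M
  have hMA : M ≤ A.comap (QuotientGroup.mk' M) := by
    have := MonoidHom.ker_le_comap (QuotientGroup.mk' M) A
    rwa [hker] at this
  have hMB : M ≤ B.comap (QuotientGroup.mk' M) := by
    have := MonoidHom.ker_le_comap (QuotientGroup.mk' M) B
    rwa [hker] at this
  have hcard' : Nat.card ↥(A.comap (QuotientGroup.mk' M)) =
      Nat.card ↥(B.comap (QuotientGroup.mk' M)) := by
    rw [card_comap_of_surjective _ (QuotientGroup.mk'_surjective M),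
      card_comap_of_surjective _ (QuotientGroup.mk'_surjective M), hcard]
  have hab : ∀ C : Subgroup (G ⧸ M), IsMulCommutative ↥C →
      ∀ a ∈ C.comap (QuotientGroup.mk' M), ∀ b ∈ C.comap (QuotientGroup.mk' M),
        a * b * a⁻¹ * b⁻¹ ∈ M := by
    intro C hC a ha b hb
    have h1 := isMulCommutative_iff.mp hC _ ha _ hb
    rw [← hker, MonoidHom.mem_ker, map_mul, map_mul, map_mul, map_inv, map_inv, h1]
    group
  rcases Nat.lt_or_ge t 2 with h | h
  · interval_cases t
    · exfalso
      rw [pow_zero] at ht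
      exact hM (Subgroup.card_eq_one.mp ht)
    · rw [pow_one] at ht
      exact hB.conj_of_prime ht hMA hMB hcard' (hab A hAc) (hab B hBc) h2
  · apply hB.conj_of_coprime hMA hMB hcard' _ (hab A hAc) (hab B hBc)
    obtain ⟨P⟩ : Nonempty (Sylow p G) := inferInstance
    have hPM := hB.eq_sylow h ht hMc hMp P
    have h3 := P.card_coprime_index
    rw [hPM] at h3
    exact h3.coprime_dvd_right (relIndex_dvd_index_of_le hMA)

theorem IsB.of_mulEquiv {G G' : Type*} [Group G] [Group G'] (e : G ≃* G') (hB : IsB G) :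
    IsB G' := by
  intro A B hA hB' hcard
  apply conj_of_comap e.toMonoidHom e.surjective
  apply hB
  · rw [isMulCommutative_iff] at hA ⊢
    intro x hx y hy
    apply e.injective
    rw [map_mul, map_mul]
    exact hA _ hx _ hy
  · rw [isMulCommutative_iff] at hB' ⊢
    intro x hx y hy
    apply e.injective
    rw [map_mul, map_mul]
    exact hB' _ hx _ hy
  · rw [card_comap_of_surjective _ e.surjective, card_comap_of_surjective _ e.surjective, hcard]

/-- The quotient of a B-group by a solvable normal subgroup of odd order, or of a solvable B-group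
by any normal subgroup, is a B-group. -/
theorem IsB.quot_aux (n : ℕ) : ∀ (G : Type*) [Group G] [Finite G], Nat.card G = n → IsB G →
    ∀ (M : Subgroup G) [M.Normal], Group.IsSolvable ↥M →
      (Odd (Nat.card ↥M) ∨ Group.IsSolvable G) → IsB (G ⧸ M) := by
  induction n using Nat.strong_induction_on with
  | _ n ih =>
  intro G _ _ hn hB M hMn hMs hor
  by_cases hM : M = ⊥
  · exact hB.of_mulEquiv ((QuotientGroup.quotientMulEquivOfEq hM).trans
      (QuotientGroup.quotientBot (G := G))).symm
  obtain ⟨M₁, p, hM₁n, hle, hne, hp, hM₁c, hM₁p⟩ := exists_elem_normal M hM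
  have : Fact p.Prime := ⟨hp⟩
  have h2 : p = 2 → Group.IsSolvable G := by
    intro hp2
    refine hor.resolve_left ?_
    intro hodd
    have h1 : p ∣ Nat.card ↥M := by
      obtain ⟨m, hm, hmo⟩ := exists_orderOf_eq_prime hp hne hM₁p
      rw [← hmo, ← Subgroup.orderOf_mk m (hle hm)]
      exact orderOf_dvd_natCard _
    rw [hp2] at h1
    exact (Nat.not_even_iff_odd.mpr hodd) (even_iff_two_dvd.mpr h1)
  have hB₁ := hB.quot_of_elem hM₁c hM₁p hne h2
  have hlt : Nat.card (G ⧸ M₁) < n := by
    rw [← hn, ← Subgroup.index_eq_card, ← M₁.index_mul_card]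
    apply lt_mul_of_one_lt_right
    · exact Nat.pos_of_ne_zero Subgroup.index_ne_zero_of_finite
    · exact (Subgroup.one_lt_card_iff_ne_bot _).mpr hne
  have hMmapn : (M.map (QuotientGroup.mk' M₁)).Normal :=
    Subgroup.Normal.map inferInstance _ (QuotientGroup.mk'_surjective M₁)
  have hMmaps : Group.IsSolvable ↥(M.map (QuotientGroup.mk' M₁)) :=
    Group.isSolvable_of_surjective ((QuotientGroup.mk' M₁).subgroupMap_surjective M)
  have hIH := ih _ hlt (G ⧸ M₁) rfl hB₁ (M.map (QuotientGroup.mk' M₁)) hMmaps ?_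
  · exact hIH.of_mulEquiv (QuotientGroup.quotientQuotientEquivQuotient M₁ M hle)
  · rcases hor with h | h
    · left
      exact Odd.of_dvd_nat h (Subgroup.card_map_dvd (H := M) (QuotientGroup.mk' M₁))
    · right
      infer_instance

theorem IsB.quot_of_solvable {G : Type*} [Group G] [Finite G] (hB : IsB G) (M : Subgroup G)
    [M.Normal] (hG : Group.IsSolvable G) : IsB (G ⧸ M) :=
  IsB.quot_aux _ G rfl hB M inferInstance (Or.inr hG)

theorem IsB.quot_of_odd {G : Type*} [Group G] [Finite G] (hB : IsB G) (M : Subgroup G)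
    [M.Normal] (hM : Group.IsSolvable ↥M) (h : Odd (Nat.card ↥M)) : IsB (G ⧸ M) :=
  IsB.quot_aux _ G rfl hB M hM (Or.inl h)

end Cfsg.Agent.H477
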