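import Mathlib
import Cfsg.Agent.H477.NormB

/-!
In a finite solvable B-group all subgroups of the same order are conjugate.
-/

set_option autoImplicit false

namespace Cfsg.Agent.H477

open Subgroup

theorem IsB.isC_aux (n : ℕ) : ∀ (G : Type*) [Group G] [Finite G], Nat.card G = n →
    Group.IsSolvable G → IsB G → IsC G := by
  induction n using Nat.strong_induction_on with
  | _ n ih =>
  intro G _ _ hn hs hB A B hcard
  by_cases htop : (⊤ : Subgroup G) = ⊥
  · have h1 : Subsingleton (Subgroup G) := subsingleton_of_bot_eq_top htop.symm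
    exact ⟨1, Subsingleton.elim _ _⟩
  obtain ⟨M, p, hMn, -, hne, hp, hMc, hMp⟩ := exists_elem_normal (⊤ : Subgroup G) htop
  obtain ⟨t, ht⟩ := card_eq_pow_of_exponent hp hMp
  have hpf : Fact p.Prime := ⟨hp⟩
  have hlt : Nat.card (G ⧸ M) < n := by
    rw [← hn, ← Subgroup.index_eq_card, ← M.index_mul_card]
    apply lt_mul_of_one_lt_right
    · exact Nat.pos_of_ne_zero Subgroup.index_ne_zero_of_finite
    · exact (Subgroup.one_lt_card_iff_ne_bot _).mpr hne
  have hMs : Group.IsSolvable ↥M := inferInstance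
  have hIC : IsC (G ⧸ M) := ih _ hlt (G ⧸ M) rfl inferInstance (hB.quot_of_solvable M hs)
  have hker : (QuotientGroup.mk' M).ker = M := QuotientGroup.ker_mk' M
  -- the two easy cases
  have hle : ∀ X Y : Subgroup G, Nat.card ↥X = Nat.card ↥Y → M ≤ X → M ≤ Y →
      ∃ g : G, Y = X.map (MulAut.conj g).toMonoidHom := by
    intro X Y h hX hY
    have hc : Nat.card ↥(X.map (QuotientGroup.mk' M)) = Nat.card ↥(Y.map (QuotientGroup.mk' M)) := by
      have h1 := card_map_mk_of_le hX
      have h2 := card_map_mk_of_le hY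
      apply Nat.eq_of_mul_eq_mul_left (Nat.card_pos (α := ↥M))
      rw [h1, h2, h]
    exact conj_of_map _ (QuotientGroup.mk'_surjective M) (by rw [hker]; exact hX)
      (by rw [hker]; exact hY) (hIC _ _ hc)
  have hcopr : ∀ X Y : Subgroup G, Nat.card ↥X = Nat.card ↥Y →
      (Nat.card ↥M).Coprime (Nat.card ↥X) →
      ∃ g : G, Y = X.map (MulAut.conj g).toMonoidHom := by
    intro X Y h hcop
    apply conj_of_map_coprime hMs h hcop
    apply hIC
    rw [card_map_mk_of_coprime hcop, card_map_mk_of_coprime (h ▸ hcop), h]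
  rcases Nat.lt_or_ge t 2 with h2 | h2
  · interval_cases t
    · exfalso
      rw [pow_zero] at ht
      exact hne (Subgroup.card_eq_one.mp ht)
    · rw [pow_one] at ht
      by_cases hpA : p ∣ Nat.card ↥A
      · have hMle : ∀ X : Subgroup G, p ∣ Nat.card ↥X → M ≤ X := by
          intro X hX
          obtain ⟨x, hx⟩ := exists_prime_orderOf_dvd_card' (G := ↥X) p hX
          have h1 : Subgroup.zpowers (x : G) = M := by
            apply hB.eq_of_normal (isMulCommutative_of_card_prime ht) inferInstance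
            rw [Nat.card_zpowers, Subgroup.orderOf_coe, hx, ht]
          rw [← h1]
          exact Subgroup.zpowers_le.mpr x.2
        exact hle A B hcard (hMle A hpA) (hMle B (hcard ▸ hpA))
      · apply hcopr A B hcard
        rw [ht]
        exact hp.coprime_iff_not_dvd.mpr hpA
  · -- `M` is the Sylow `p`-subgroup
    have hMi : (Nat.card ↥M).Coprime M.index := by
      obtain ⟨P⟩ : Nonempty (Sylow p G) := inferInstance
      have hPM := hB.eq_sylow h2 ht hMc hMp P
      have h3 := P.card_coprime_index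
      rwa [hPM] at h3
    have hpM : p ∣ Nat.card ↥M := by
      rw [ht]; exact dvd_pow_self p (by omega)
    have hMip : p.Coprime M.index := hMi.coprime_dvd_left hpM
    -- orders of the intersections with `M`
    have hcint : ∀ X : Subgroup G, Nat.card ↥(M ⊓ X) * M.relIndex X = Nat.card ↥X := by
      intro X
      have h3 := relIndex_mul_relIndex (⊥ : Subgroup G) (M ⊓ X) X bot_le inf_le_right
      rwa [relIndex_bot_left, relIndex_bot_left, inf_relIndex_right] at h3
    have hrel : ∀ X : Subgroup G, p.Coprime (M.relIndex X) := fun X =>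
      hMip.coprime_dvd_right (relIndex_dvd_index_of_normal M X)
    have hpow : ∀ X : Subgroup G, ∃ k, Nat.card ↥(M ⊓ X) = p ^ k := fun X =>
      card_eq_pow_of_exponent hp (fun x hx => hMp x hx.1)
    have hdv : ∀ X Y : Subgroup G, Nat.card ↥X = Nat.card ↥Y →
        Nat.card ↥(M ⊓ X) ∣ Nat.card ↥(M ⊓ Y) := by
      intro X Y h
      obtain ⟨k, hk⟩ := hpow X
      have h3 : Nat.card ↥(M ⊓ X) ∣ Nat.card ↥(M ⊓ Y) * M.relIndex Y := by
        rw [hcint Y, ← h, ← hcint X]; exact dvd_mul_right _ _
      rw [hk] at h3 ⊢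
      exact (Nat.Coprime.pow_left k (hrel Y)).dvd_of_dvd_mul_right h3
    obtain ⟨g, hg⟩ := hB (M ⊓ A) (M ⊓ B) (isMulCommutative_mono inf_le_left hMc)
      (isMulCommutative_mono inf_le_left hMc) (Nat.dvd_antisymm (hdv A B hcard) (hdv B A hcard.symm))
    set A' := A.map (MulAut.conj g).toMonoidHom with hA'
    have hcard' : Nat.card ↥A' = Nat.card ↥B := by rw [hA', card_map_conj, hcard]
    have hMg : M.map (MulAut.conj g).toMonoidHom = M := hMn.conjAct g
    have hMA' : M ⊓ A' = M ⊓ B := by
      rw [hg, Subgroup.map_inf _ _ _ (MulAut.conj g).injective, hMg]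
    -- it suffices to conjugate `A'` to `B`
    suffices h : ∃ g : G, B = A'.map (MulAut.conj g).toMonoidHom by
      obtain ⟨g', hg'⟩ := h
      exact ⟨g' * g, conj_trans_of hA' hg'⟩
    set D := M ⊓ B with hD
    have hDM : D ≤ M := inf_le_left
    have hDB : D ≤ B := inf_le_right
    have hDA' : D ≤ A' := by rw [← hMA']; exact inf_le_right
    by_cases hD1 : D = ⊥
    · apply hcopr A' B hcard'
      rw [ht]
      apply Nat.Coprime.pow_left
      have h3 := hcint A'
      rw [hMA', hD1, Subgroup.card_bot, one_mul] at h3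
      rw [← h3]
      exact hrel A'
    by_cases hD2 : D = M
    · exact hle A' B hcard' (hD2 ▸ hDA') (hD2 ▸ hDB)
    -- the main case
    set N := normalizer (D : Set G) with hN
    have hAN : A' ≤ N := by
      intro x hx
      rw [hN, mem_normalizer_iff_map_conj_eq, ← hMA', Subgroup.map_inf _ _ _ (MulAut.conj x).injective]
      congr 1
      · exact hMn.conjAct x
      · exact Subgroup.conj_smul_eq_self_of_mem hx
    have hBN : B ≤ N := by
      intro x hx
      rw [hN, mem_normalizer_iff_map_conj_eq, hD, Subgroup.map_inf _ _ _ (MulAut.conj x).injective]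
      congr 1
      · exact hMn.conjAct x
      · exact Subgroup.conj_smul_eq_self_of_mem hx
    have hMN : M ≤ N := by
      refine le_trans ?_ (centralizer_le_normalizer (D : Set G))
      intro x hx
      rw [mem_centralizer_iff]
      intro d hd
      exact isMulCommutative_iff.mp hMc d (hDM hd) x hx
    have hDN : D ≤ N := hDM.trans hMN
    have hBQ := hB.isB_normalizer_quot hMc hMp hMi hDM hD1 hD2 hMN
    have hcM : Nat.card ↥(M.subgroupOf N) = Nat.card ↥M :=
      Nat.card_congr (subgroupOfEquivOfLe hMN).toEquiv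
    have hltN : Nat.card (↥N ⧸ M.subgroupOf N) < n := by
      rw [← Subgroup.index_eq_card]
      have h3 : (M.subgroupOf N).index ∣ M.index := relIndex_dvd_index_of_normal M N
      refine lt_of_le_of_lt (Nat.le_of_dvd (Nat.pos_of_ne_zero Subgroup.index_ne_zero_of_finite) h3) ?_
      rw [Subgroup.index_eq_card]; exact hlt
    have hICN : IsC (↥N ⧸ M.subgroupOf N) :=
      ih _ hltN (↥N ⧸ M.subgroupOf N) rfl inferInstance hBQ
    -- complements of `D`
    have hcomp : ∀ X : Subgroup G, D ≤ X → X ≤ N → M ⊓ X = D →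
        ∃ K : Subgroup G, K ≤ X ∧ D ⊔ K = X ∧ Nat.card ↥K = M.relIndex X := by
      intro X hDX hXN hMX
      have hDn : (D.subgroupOf X).Normal := normal_subgroupOf_iff_le_normalizer hDX |>.mpr hXN
      have hcD : Nat.card ↥(D.subgroupOf X) = Nat.card ↥D :=
        Nat.card_congr (subgroupOfEquivOfLe hDX).toEquiv
      have hi : (D.subgroupOf X).index = M.relIndex X := by
        change D.relIndex X = M.relIndex X
        rw [← hMX, inf_relIndex_right]
      obtain ⟨k, hk⟩ := hpow B
      obtain ⟨K, hK⟩ := Subgroup.exists_right_complement'_of_coprime (N := D.subgroupOf X) (by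
        rw [hcD, hi, hD, hk]
        exact Nat.Coprime.pow_left k (hrel X))
      refine ⟨K.map X.subtype, Subgroup.map_subtype_le K, ?_, ?_⟩
      · have h3 := congrArg (Subgroup.map X.subtype) hK.sup_eq_top
        rwa [Subgroup.map_sup, Subgroup.map_subgroupOf_eq_of_le hDX, ← MonoidHom.range_eq_map,
          Subgroup.range_subtype] at h3
      · rw [Subgroup.card_map_of_injective X.subtype_injective, ← hi]
        have h3 := hK.card_mul_card
        have h4 := (D.subgroupOf X).card_mul_index
        exact Nat.eq_of_mul_eq_mul_left Nat.card_pos (h3.trans h4.symm)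
    obtain ⟨A₀, hA₀, hA₀s, hA₀c⟩ := hcomp A' hDA' hAN hMA'
    obtain ⟨B₀, hB₀, hB₀s, hB₀c⟩ := hcomp B hDB hBN rfl
    have hA₀N : A₀ ≤ N := hA₀.trans hAN
    have hB₀N : B₀ ≤ N := hB₀.trans hBN
    have hcA : Nat.card ↥(A₀.subgroupOf N) = Nat.card ↥A₀ :=
      Nat.card_congr (subgroupOfEquivOfLe hA₀N).toEquiv
    have hcB : Nat.card ↥(B₀.subgroupOf N) = Nat.card ↥B₀ :=
      Nat.card_congr (subgroupOfEquivOfLe hB₀N).toEquiv
    have hc0 : Nat.card ↥A₀ = Nat.card ↥B₀ := by
      rw [hA₀c, hB₀c]
      have h3 := hcint A'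
      have h4 := hcint B
      rw [hMA'] at h3
      exact Nat.eq_of_mul_eq_mul_left Nat.card_pos (h3.trans (hcard'.trans h4.symm))
    have hcopA : (Nat.card ↥(M.subgroupOf N)).Coprime (Nat.card ↥(A₀.subgroupOf N)) := by
      rw [hcM, hcA, hA₀c, ht]
      exact Nat.Coprime.pow_left t (hrel A')
    have hcopB : (Nat.card ↥(M.subgroupOf N)).Coprime (Nat.card ↥(B₀.subgroupOf N)) := by
      rw [hcM, hcB, ← hc0, hA₀c, ht]
      exact Nat.Coprime.pow_left t (hrel A')
    have hMNs : Group.IsSolvable ↥(M.subgroupOf N) := inferInstance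
    obtain ⟨y, hyN, hy⟩ := conj_mem_of_subgroupOf hA₀N hB₀N
      (conj_of_map_coprime (M := M.subgroupOf N) hMNs (X := A₀.subgroupOf N) (Y := B₀.subgroupOf N)
        (by rw [hcA, hcB, hc0]) hcopA
        (hICN _ _ (by rw [card_map_mk_of_coprime hcopA, card_map_mk_of_coprime hcopB, hcA, hcB, hc0])))
    refine ⟨y, ?_⟩
    have hDy : D.map (MulAut.conj y).toMonoidHom = D := mem_normalizer_iff_map_conj_eq.mp hyN
    rw [← hA₀s, ← hB₀s, Subgroup.map_sup, ← hy, hDy]

/-- **In a finite solvable B-group all subgroups of the same order are conjugate.** -/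
theorem IsB.isC {G : Type*} [Group G] [Finite G] [hs : Group.IsSolvable G] (hB : IsB G) : IsC G :=
  IsB.isC_aux _ G rfl hs hB

end Cfsg.Agent.H477
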