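import Mathlib
import Cfsg.Agent.H477.QuotAll

/-!
Sylow subgroups of solvable B-groups are cyclic, elementary abelian, or quaternion of order 8.
-/

set_option autoImplicit false

namespace Cfsg.Agent.H477

open Subgroup

/-- The properties of the quaternion group of order 8 that we use. -/
structure IsQ8 (S : Type*) [Group S] : Prop where
  card : Nat.card S = 8
  noncomm : ¬ ∀ x y : S, x * y = y * x
  sq : ∀ x y : S, x ^ 2 = 1 → x * y = y * x
  four : ∀ x : S, x ^ 4 = 1
  inv : ∀ x y : S, x ^ 2 = 1 → y ^ 2 = 1 → x = 1 ∨ y = 1 ∨ x = y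

theorem IsQ8.of_mulEquiv {S T : Type*} [Group S] [Group T] (e : S ≃* T) (h : IsQ8 S) : IsQ8 T := by
  refine ⟨by rw [← Nat.card_congr e.toEquiv, h.card], ?_, ?_, ?_, ?_⟩
  · intro hT
    apply h.noncomm
    intro x y
    apply e.injective
    rw [map_mul, map_mul]
    exact hT _ _
  · intro x y hx
    apply e.symm.injective
    rw [map_mul, map_mul]
    apply h.sq
    rw [← map_pow, hx, map_one]
  · intro x
    apply e.symm.injective
    rw [map_pow, map_one]
    exact h.four _
  · intro x y hx hy
    have hx' : (e.symm x) ^ 2 = 1 := by rw [← map_pow, hx, map_one]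
    have hy' : (e.symm y) ^ 2 = 1 := by rw [← map_pow, hy, map_one]
    rcases h.inv _ _ hx' hy' with h1 | h1 | h1
    · left; exact e.symm.injective (by rw [h1, map_one])
    · right; left; exact e.symm.injective (by rw [h1, map_one])
    · right; right; exact e.symm.injective h1

theorem isQ8_quaternionGroup_two : IsQ8 (QuaternionGroup 2) := by
  refine ⟨?_, ?_, ?_, ?_, ?_⟩
  · rw [Nat.card_eq_fintype_card, QuaternionGroup.card]
  · decide
  · decide
  · decide
  · decide

variable {G : Type*} [Group G] [Finite G]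

/-- The three possibilities for a Sylow subgroup. -/
def SylowCases (p : ℕ) (S : Type*) [Group S] : Prop :=
  IsCyclic S ∨ ((∀ x y : S, x * y = y * x) ∧ ∀ x : S, x ^ p = 1) ∨ (p = 2 ∧ IsQ8 S)

theorem SylowCases.of_mulEquiv {p : ℕ} {S T : Type*} [Group S] [Group T] (e : S ≃* T)
    (h : SylowCases p S) : SylowCases p T := by
  rcases h with h | ⟨h1, h2⟩ | ⟨h1, h2⟩
  · exact Or.inl (isCyclic_of_surjective e e.surjective)
  · refine Or.inr (Or.inl ⟨fun x y => ?_, fun x => ?_⟩)
    · apply e.symm.injective
      rw [map_mul, map_mul]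
      exact h1 _ _
    · apply e.symm.injective
      rw [map_pow, map_one]
      exact h2 _
  · exact Or.inr (Or.inr ⟨h1, h2.of_mulEquiv e⟩)

theorem IsB.sylow_cases_aux (n : ℕ) : ∀ (G : Type*) [Group G] [Finite G], Nat.card G = n →
    Group.IsSolvable G → IsB G → ∀ (p : ℕ) [Fact p.Prime] (P : Sylow p G),
      SylowCases p ↥(P : Subgroup G) := by
  induction n using Nat.strong_induction_on with
  | _ n ih =>
  intro G _ _ hn hs hB p hp P
  by_cases htop : (⊤ : Subgroup G) = ⊥
  · left
    have h1 : Subsingleton G := Subgroup.subsingleton_iff.mp (subsingleton_of_bot_eq_top htop.symm)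
    exact isCyclic_of_subsingleton
  obtain ⟨M, q, hMn, -, hne, hq, hMc, hMq⟩ := exists_elem_normal (⊤ : Subgroup G) htop
  obtain ⟨t, ht⟩ := card_eq_pow_of_exponent hq hMq
  have : Fact q.Prime := ⟨hq⟩
  by_cases hqp : q = p
  · subst hqp
    rcases Nat.lt_or_ge t 2 with h | h
    · interval_cases t
      · exfalso
        rw [pow_zero] at ht
        exact hne (Subgroup.card_eq_one.mp ht)
      · rw [pow_one] at ht
        rcases pgroup_cases P.isPGroup' (hB.unique_in ht (P : Subgroup G)) with h1 | ⟨h1, m, hm, ⟨e⟩⟩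
        · exact Or.inl h1
        · subst h1
          have hm1 := hB.quaternion_sylow P hm e
          subst hm1
          refine Or.inr (Or.inr ⟨rfl, ?_⟩)
          exact IsQ8.of_mulEquiv e.symm isQ8_quaternionGroup_two
    · right; left
      have hPM := hB.eq_sylow h ht hMc hMq P
      rw [hPM]
      refine ⟨fun x y => ?_, fun x => ?_⟩
      · exact Subtype.ext (isMulCommutative_iff.mp hMc x x.2 y y.2)
      · exact Subtype.ext (hMq x x.2)
  · have hlt : Nat.card (G ⧸ M) < n := by
      rw [← hn, ← Subgroup.index_eq_card, ← M.index_mul_card]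
      apply lt_mul_of_one_lt_right
      · exact Nat.pos_of_ne_zero Subgroup.index_ne_zero_of_finite
      · exact (Subgroup.one_lt_card_iff_ne_bot _).mpr hne
    have hIH := ih _ hlt (G ⧸ M) rfl inferInstance (hB.quot_of_solvable M hs) p
      (P.mapSurjective (QuotientGroup.mk'_surjective M))
    have hdisj : Disjoint (P : Subgroup G) M := by
      apply Subgroup.disjoint_of_coprime_natCard
      rw [ht]
      apply Nat.Coprime.pow_right
      obtain ⟨k, hk⟩ := IsPGroup.iff_card.mp P.isPGroup'
      rw [hk]
      apply Nat.Coprime.pow_left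
      exact (Nat.coprime_primes hp.out hq).mpr (Ne.symm hqp)
    let f : ↥(P : Subgroup G) →* G ⧸ M := (QuotientGroup.mk' M).comp (P : Subgroup G).subtype
    have hf : Function.Injective f := by
      rw [injective_iff_map_eq_one]
      intro x hx
      have h1 : (x : G) ∈ M := by
        rw [← QuotientGroup.ker_mk' M, MonoidHom.mem_ker]
        exact hx
      exact Subtype.ext (Subgroup.disjoint_def.mp hdisj x.2 h1)
    have hrange : f.range = ((P.mapSurjective (QuotientGroup.mk'_surjective M) :
        Sylow p (G ⧸ M)) : Subgroup (G ⧸ M)) := by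
      rw [MonoidHom.range_comp, Subgroup.range_subtype]
      rfl
    have e : ↥(P : Subgroup G) ≃* ↥f.range := MonoidHom.ofInjective hf
    rw [← hrange] at hIH
    exact hIH.of_mulEquiv e.symm

theorem IsB.sylow_cases [hs : Group.IsSolvable G] (hB : IsB G) (p : ℕ) [Fact p.Prime]
    (P : Sylow p G) : SylowCases p ↥(P : Subgroup G) :=
  IsB.sylow_cases_aux _ G rfl hs hB p P

end Cfsg.Agent.H477
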